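import Mathlib
import Cfsg.Agent.Lib.Helper49.RUW.Defs

/-!
# RUW package [CHAIN]: three fixed-point steps along a series
-/

set_option autoImplicit false

namespace Cfsg.Agent.Lib.Helper16.RUW

open Cfsg.Agent.Lib.Helper49.RUW

universe u

variable {T : Type u} [Group T]

theorem cg_mul (a b p : T) : cg (a * b) p = cg a p * (a * cg b p * a⁻¹) := by
  unfold cg; group

theorem cg_inv (a p : T) : cg a⁻¹ p = a⁻¹ * (cg a p)⁻¹ * a := by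
  unfold cg; group

theorem cg_conj (a g p : T) : cg a (g * p * g⁻¹) = g * cg (g⁻¹ * a * g) p * g⁻¹ := by
  unfold cg; group

theorem cg_mul_mem {Z : Subgroup T} (hZ : Z.Normal) {a b p : T} (ha : cg a p ∈ Z)
    (hb : cg b p ∈ Z) : cg (a * b) p ∈ Z := by
  rw [cg_mul]
  exact Z.mul_mem ha (hZ.conj_mem _ hb a)

theorem cg_self_mem {Z : Subgroup T} (hZ : Z.Normal) (a : T) {z : T} (hz : z ∈ Z) :
    cg a z ∈ Z := by
  unfold cg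
  exact Z.mul_mem (Z.inv_mem hz) (hZ.conj_mem z hz a)

theorem cg_comm_mem {W Z : Subgroup T} (hc : ∀ p ∈ W, ∀ q ∈ W, p * q * p⁻¹ * q⁻¹ ∈ Z)
    {w p : T} (hw : w ∈ W) (hp : p ∈ W) : cg w p ∈ Z := by
  have := hc p⁻¹ (W.inv_mem hp) w hw
  have e : cg w p = p⁻¹ * w * p⁻¹⁻¹ * w⁻¹ := by unfold cg; group
  rw [e]; exact this

/-- [CHAIN] -/
theorem pkgChain (hStep : PkgFixStep.{u}) : PkgChain.{u} := by
  intro T _ _ W X₁ X₂ Z g₁ g₂ g₃ hS hZ hZW hsq hcomm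
  -- step 1
  obtain ⟨P₁, m1, i1, c1, s1⟩ := hStep W Z g₁ hZ hZW hsq hcomm
    (fun p hp => hS.Wn.conj_mem p hp g₁)
    (fun p hp => cg_comm_mem hcomm hS.sq1 hp)
  have hP1W : P₁ ≤ W := fun p hp => ((m1 p).1 hp).1
  have hZP1 : Z ≤ P₁ := fun z hz => (m1 z).2 ⟨hZW hz, cg_self_mem hZ g₁ hz⟩
  have fix1 : ∀ p ∈ P₁, ∀ a ∈ X₁, cg a p ∈ Z := by
    intro p hp a ha
    rcases hS.cov1 a ha with h | h
    · exact cg_comm_mem hcomm h (hP1W hp)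
    · have e : a = (a * g₁⁻¹) * g₁ := by group
      rw [e]
      exact cg_mul_mem hZ (cg_comm_mem hcomm h (hP1W hp)) ((m1 p).1 hp).2
  -- step 2
  have hg2P1 : ∀ p ∈ P₁, g₂ * p * g₂⁻¹ ∈ P₁ := by
    intro p hp
    refine (m1 _).2 ⟨hS.Wn.conj_mem p (hP1W hp) g₂, ?_⟩
    rw [cg_conj]
    apply hZ.conj_mem
    apply fix1 p hp
    have := hS.n1.conj_mem g₁ hS.g1 g₂⁻¹
    simpa using this
  obtain ⟨P₂, m2, i2, c2, s2⟩ := hStep P₁ Z g₂ hZ hZP1 (fun p hp => hsq p (hP1W hp))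
    (fun p hp q hq => hcomm p (hP1W hp) q (hP1W hq)) hg2P1
    (fun p hp => fix1 p hp _ hS.sq2)
  have hP2P1 : P₂ ≤ P₁ := fun p hp => ((m2 p).1 hp).1
  have hZP2 : Z ≤ P₂ := fun z hz => (m2 z).2 ⟨hZP1 hz, cg_self_mem hZ g₂ hz⟩
  have fix2 : ∀ p ∈ P₂, ∀ a ∈ X₂, cg a p ∈ Z := by
    intro p hp a ha
    rcases hS.cov2 a ha with h | h
    · exact fix1 p (hP2P1 hp) a h
    · have e : a = (a * g₂⁻¹) * g₂ := by group
      rw [e]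
      exact cg_mul_mem hZ (fix1 p (hP2P1 hp) _ h) ((m2 p).1 hp).2
  -- step 3
  have hg3P2 : ∀ p ∈ P₂, g₃ * p * g₃⁻¹ ∈ P₂ := by
    intro p hp
    have hpW : p ∈ W := hP1W (hP2P1 hp)
    have h1 : g₃ * p * g₃⁻¹ ∈ P₁ := by
      refine (m1 _).2 ⟨hS.Wn.conj_mem p hpW g₃, ?_⟩
      rw [cg_conj]
      apply hZ.conj_mem
      apply fix1 p (hP2P1 hp)
      have := hS.n1.conj_mem g₁ hS.g1 g₃⁻¹
      simpa using this
    refine (m2 _).2 ⟨h1, ?_⟩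
    rw [cg_conj]
    apply hZ.conj_mem
    apply fix2 p hp
    have := hS.n2.conj_mem g₂ hS.g2 g₃⁻¹
    simpa using this
  obtain ⟨P₃, m3, i3, c3, s3⟩ := hStep P₂ Z g₃ hZ hZP2
    (fun p hp => hsq p (hP1W (hP2P1 hp)))
    (fun p hp q hq => hcomm p (hP1W (hP2P1 hp)) q (hP1W (hP2P1 hq))) hg3P2
    (fun p hp => fix2 p hp _ hS.sq3)
  have hP3P2 : P₃ ≤ P₂ := fun p hp => ((m3 p).1 hp).1
  have fixT : ∀ p ∈ P₃, ∀ t : T, cg t p ∈ Z := by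
    intro p hp t
    rcases hS.cov3 t with h | h
    · exact fix2 p (hP3P2 hp) t h
    · have e : t = (t * g₃⁻¹) * g₃ := by group
      rw [e]
      exact cg_mul_mem hZ (fix2 p (hP3P2 hp) _ h) ((m3 p).1 hp).2
  exact ⟨P₁, P₂, P₃, ⟨m1, m2, m3, i1, i2, c1, c2, c3, s1, s2, fix2, fixT⟩⟩

end Cfsg.Agent.Lib.Helper16.RUW
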